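import Cfsg.Agent.H26.XZ.Gal

/-!
# Products of forms (helper603, for S4791 + S4927)

* `pol_mul_ne_zero` : `f ∈ Pol p A k`, `g ∈ Pol p A m` nonzero, `k + m < p` => `f * g ≠ 0` (restriction to a line).
* `pol_pow_mul_ne_zero` : the same for `f ^ a * g ^ b`.
* `nr_ge` : `p = e k + 1`, `3 ≤ k`, nonzero invariant forms of degrees `2 e`, `3 e` => `(p - 1) / e ≤ nr p M G`;
  `nr_six`, `nr_four`.
-/

set_option autoImplicit false
set_option linter.unusedSectionVars false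

open scoped ComplexConjugate

namespace Cfsg.Agent.H603.AP

open Cfsg
open Cfsg.Agent.Blocks Cfsg.Agent.Blocks.Local Cfsg.Agent.Characters
open Cfsg.Agent.H674.XZ

universe u

section line

variable {p : ℕ} [hp : Fact p.Prime] {A : Type u} [Group A]

theorem ev_mul' (l m : LL p A) (x : A) : ev (l * m) x = ev l x + ev m x := by
  unfold ev
  rw [MonoidHom.mul_apply, toAdd_mul]

theorem mono_line (xs : List A) (l m : LL p A) : ∃ F : Polynomial (ZMod p), F.natDegree ≤ xs.length ∧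
    ∀ t : ℕ, mono xs (l * m ^ t) = F.eval (t : ZMod p) := by
  induction xs with
  | nil => exact ⟨1, by simp, fun t => by simp [mono]⟩
  | cons y xs ih =>
    obtain ⟨F, hF, h⟩ := ih
    refine ⟨(Polynomial.C (ev m y) * Polynomial.X + Polynomial.C (ev l y)) * F, ?_, fun t => ?_⟩
    · refine Polynomial.natDegree_mul_le.trans ?_
      have h1 : (Polynomial.C (ev m y) * Polynomial.X + Polynomial.C (ev l y)).natDegree ≤ 1 := Polynomial.natDegree_linear_le
      rw [List.length_cons]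
      omega
    · have h2 := h t
      unfold mono at h2 ⊢
      rw [List.map_cons, List.prod_cons, h2, ev_mul', ev_pow', Polynomial.eval_mul, Polynomial.eval_add, Polynomial.eval_mul,
        Polynomial.eval_C, Polynomial.eval_X, Polynomial.eval_C]
      ring

/-- the restriction of a form of degree `k` to a line is a polynomial of degree at most `k` -/
theorem pol_line {k : ℕ} {f : LL p A → ZMod p} (hf : f ∈ Pol p A k) (l m : LL p A) :
    ∃ F : Polynomial (ZMod p), F.natDegree ≤ k ∧ ∀ t : ℕ, f (l * m ^ t) = F.eval (t : ZMod p) := by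
  unfold Pol at hf
  induction hf using Submodule.span_induction with
  | mem f h =>
    obtain ⟨xs, hx, rfl⟩ := h
    rw [← hx]
    exact mono_line xs l m
  | zero => exact ⟨0, by simp, fun t => by simp⟩
  | add f g _ _ h1 h2 =>
    obtain ⟨F, hF, hF'⟩ := h1
    obtain ⟨G, hG, hG'⟩ := h2
    exact ⟨F + G, (Polynomial.natDegree_add_le _ _).trans (max_le hF hG), fun t => by
      rw [Pi.add_apply, hF', hG', Polynomial.eval_add]⟩
  | smul c f _ h1 =>
    obtain ⟨F, hF, hF'⟩ := h1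
    exact ⟨Polynomial.C c * F, (Polynomial.natDegree_C_mul_le _ _).trans hF, fun t => by
      rw [Pi.smul_apply, hF', Polynomial.eval_mul, Polynomial.eval_C, smul_eq_mul]⟩

/-- **A product of nonzero forms of total degree `< p` is not zero.** -/
theorem pol_mul_ne_zero {k m : ℕ} {f g : LL p A → ZMod p} (hf : f ∈ Pol p A k) (hg : g ∈ Pol p A m) (hf0 : f ≠ 0) (hg0 : g ≠ 0)
    (hkm : k + m < p) : f * g ≠ 0 := by
  obtain ⟨l, hl⟩ := Function.ne_iff.1 hf0
  obtain ⟨l', hl'⟩ := Function.ne_iff.1 hg0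
  obtain ⟨F, hF, hF'⟩ := pol_line hf l (l⁻¹ * l')
  obtain ⟨G, hG, hG'⟩ := pol_line hg l (l⁻¹ * l')
  have hF0 : F ≠ 0 := by
    rintro rfl
    apply hl
    have h := hF' 0
    rw [pow_zero, mul_one] at h
    rw [h]
    simp
  have hG0 : G ≠ 0 := by
    rintro rfl
    apply hl'
    have h := hG' 1
    rw [pow_one, mul_inv_cancel_left] at h
    rw [h]
    simp
  intro h0
  refine mul_ne_zero hF0 hG0 ?_
  refine Polynomial.eq_zero_of_natDegree_lt_card_of_eval_eq_zero (F * G) (f := (id : ZMod p → ZMod p)) Function.injective_id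
    (fun t => ?_) ?_
  · have h := congrFun h0 (l * (l⁻¹ * l') ^ t.val)
    rw [Pi.mul_apply, hF', hG', ZMod.natCast_zmod_val] at h
    rw [Polynomial.eval_mul]
    exact h
  · rw [ZMod.card]
    exact (Polynomial.natDegree_mul_le.trans (add_le_add hF hG)).trans_lt hkm

theorem pol_pow_ne_zero {f : LL p A → ZMod p} (hf0 : f ≠ 0) (i : ℕ) : f ^ i ≠ 0 := by
  obtain ⟨l, hl⟩ := Function.ne_iff.1 hf0
  intro h
  have h1 := congrFun h l
  rw [Pi.pow_apply] at h1
  exact pow_ne_zero i hl h1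

theorem pol_pow_mul_ne_zero {k m : ℕ} {f g : LL p A → ZMod p} (hf : f ∈ Pol p A k) (hg : g ∈ Pol p A m) (hf0 : f ≠ 0) (hg0 : g ≠ 0)
    {a b : ℕ} (hab : a * k + b * m < p) : f ^ a * g ^ b ≠ 0 :=
  pol_mul_ne_zero (Pol_pow hf a) (Pol_pow hg b) (pol_pow_ne_zero hf0 a) (pol_pow_ne_zero hg0 b) hab

end line

variable {p : ℕ} [hp : Fact p.Prime] {M : Ideal AlgInt} {G : Type u} [Group G] [Finite G]

theorem WInv.mul {P : Sylow p G} {f g : LL p P → ZMod p} (hf : WInv P f) (hg : WInv P g) : WInv P (f * g) :=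
  fun n hn l m h => by rw [Pi.mul_apply, Pi.mul_apply, hf n hn l m h, hg n hn l m h]

/-- **Nonzero invariant forms of degrees `2 e` and `3 e`**, `p = e k + 1`, `3 ≤ k`. -/
theorem nr_ge (hM : IsPModular p M) (hpG : p ∣ Nat.card G) {P : Sylow p G} (hab : ∀ x ∈ P, ∀ y ∈ P, x * y = y * x)
    {e k : ℕ} (he : 1 ≤ e) (hk : 3 ≤ k) (hp' : p = e * k + 1) {f g : LL p P → ZMod p} (hf : f ∈ Pol p P (2 * e))
    (hg : g ∈ Pol p P (3 * e)) (hf0 : f ≠ 0) (hg0 : g ≠ 0) (hfW : WInv P f) (hgW : WInv P g) :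
    (p - 1) / e ≤ H508.XR.nr p M G := by
  obtain ⟨a, b, hab'⟩ : ∃ a b : ℕ, 2 * a + 3 * b = k - 1 := by
    rcases Nat.even_or_odd' (k - 1) with ⟨c, h | h⟩
    · exact ⟨c, 0, by omega⟩
    · exact ⟨c - 1, 1, by omega⟩
  have hD : a * (2 * e) + b * (3 * e) = e * (k - 1) := by
    rw [← hab']
    ring
  obtain ⟨j, rfl⟩ : ∃ j, k = j + 1 := ⟨k - 1, by omega⟩
  rw [Nat.add_sub_cancel] at hD hab'
  have hj : 2 ≤ j := by omega
  have hlt : a * (2 * e) + b * (3 * e) < p := by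
    rw [hD, hp', Nat.mul_add]
    omega
  have hPol : f ^ a * g ^ b ∈ Pol p P (e * j) := by
    rw [← hD]
    exact Pol_mul (Pol_pow hf a) (Pol_pow hg b)
  have h := H26.XZ.gal_nr_one hM hpG hab (D := e * j) (by nlinarith) (by rw [hp', Nat.mul_add]; omega)
    (pol_pow_mul_ne_zero hf hg hf0 hg0 hlt) hPol (WInv.mul (hfW.pow a) (hgW.pow b))
  have hg1 : Nat.gcd (e * j) (p - 1) = e := by
    rw [hp', Nat.add_sub_cancel, Nat.gcd_mul_left]
    have : Nat.gcd j (j + 1) = 1 := by simp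
    rw [this, mul_one]
  rwa [hg1] at h

/-- degrees 12 and 18, `p = 1` modulo 6, `19 ≤ p` -/
theorem nr_six (hM : IsPModular p M) (hpG : p ∣ Nat.card G) {P : Sylow p G} (hab : ∀ x ∈ P, ∀ y ∈ P, x * y = y * x)
    (h6 : p % 6 = 1) (h19 : 19 ≤ p) {f g : LL p P → ZMod p} (hf : f ∈ Pol p P 12)
    (hg : g ∈ Pol p P 18) (hf0 : f ≠ 0) (hg0 : g ≠ 0) (hfW : WInv P f) (hgW : WInv P g) :
    (p - 1) / 6 ≤ H508.XR.nr p M G :=
  nr_ge hM hpG hab (e := 6) (k := p / 6) (by norm_num) (by omega) (by omega) hf hg hf0 hg0 hfW hgW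

/-- degrees 8 and 12, `p = 1` modulo 4, `13 ≤ p` -/
theorem nr_four (hM : IsPModular p M) (hpG : p ∣ Nat.card G) {P : Sylow p G} (hab : ∀ x ∈ P, ∀ y ∈ P, x * y = y * x)
    (h4 : p % 4 = 1) (h13 : 13 ≤ p) {f g : LL p P → ZMod p} (hf : f ∈ Pol p P 8)
    (hg : g ∈ Pol p P 12) (hf0 : f ≠ 0) (hg0 : g ≠ 0) (hfW : WInv P f) (hgW : WInv P g) :
    (p - 1) / 4 ≤ H508.XR.nr p M G :=
  nr_ge hM hpG hab (e := 4) (k := p / 4) (by norm_num) (by omega) (by omega) hf hg hf0 hg0 hfW hgW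

end Cfsg.Agent.H603.AP
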